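import Cfsg.Agent.H694.EB.Two
import Cfsg.Agent.H694.ListCount

/-!
# The number of elements `w` with `Reg cs K w` and the orbit of a functional (TEAM EB, [U10])
-/

set_option autoImplicit false

namespace Cfsg.Agent.H568.EB

open Cfsg.Agent.ChevalleyStructure.CoxeterGeom Cfsg.Agent.Tits.Core Cfsg.Agent.Tits.OppRes
open Cfsg.Agent.Tits.OppRes.Cox Cfsg.Agent.H694 Cfsg.Agent.H694.EB

variable {B : Type*} [Fintype B] [DecidableEq B]
variable {W : Type*} [Group W] {M : CoxeterMatrix B} (cs : CoxeterSystem M W) {A : B → B → ℤ}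
  (h : IsCartan M A)

include h in
/-- If `w α_i = α_j` then `w s_i = s_j w`. -/
theorem conj_of_rep [Finite W] {w : W} {i j : B}
    (hw : rep cs h w (Pi.single i 1) = Pi.single j 1) : w * cs.simple i = cs.simple j * w := by
  have hwi : rep cs h w⁻¹ (Pi.single j 1) = Pi.single i 1 := by
    rw [← hw, ← rep_mul_apply, inv_mul_cancel, map_one, Module.End.one_apply]
  -- the reflection conjugated
  have h1 : ∀ v : B → ℤ, rep cs h (w⁻¹ * cs.simple j * w) v =
      v - pairing A j (rep cs h w v) • Pi.single i 1 := by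
    intro v
    rw [rep_mul_apply, rep_mul_apply, rep_simple, refl_apply, single_eq_smul j, map_sub, map_smul, hwi,
      ← rep_mul_apply, inv_mul_cancel, map_one, Module.End.one_apply]
  set z : W := w⁻¹ * cs.simple j * w * cs.simple i with hz
  have h2 : ∀ v : B → ℤ, ∃ m : ℤ, rep cs h z v = v + m • Pi.single i 1 := by
    intro v
    refine ⟨-(pairing A i v + pairing A j (rep cs h w (rep cs h (cs.simple i) v))), ?_⟩
    rw [hz, rep_mul_apply, h1]
    rw [rep_simple, refl_apply, single_eq_smul i (pairing A i v), neg_smul, add_smul]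
    abel
  have h3 : rep cs h z (Pi.single i 1) = Pi.single i 1 := by
    rw [hz, rep_mul_apply, rep_simple, refl_single_self h, map_neg, rep_mul_apply, hw, rep_mul_apply,
      rep_simple, refl_single_self h, map_neg, hwi, neg_neg]
  have h4 : ∀ v : B → ℤ, rep cs h z v = v := by
    intro v
    obtain ⟨m, hm⟩ := h2 v
    have h5 : ∀ k : ℕ, rep cs h (z ^ k) v = v + ((k : ℤ) * m) • Pi.single i 1 := by
      intro k
      induction k with
      | zero => simp
      | succ k ih =>
        rw [pow_succ', rep_mul_apply, ih, map_add, map_smul, h3, hm, add_assoc, ← add_smul]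
        congr 2
        push_cast
        ring
    have h6 := h5 (Nat.card W)
    rw [pow_card_eq_one', map_one, Module.End.one_apply] at h6
    have h7 : (((Nat.card W : ℕ) : ℤ) * m) = 0 := by
      have h8 := congrFun h6 i
      simpa using h8
    have h9 : m = 0 := by
      rcases mul_eq_zero.1 h7 with h8 | h8
      · exact absurd (by exact_mod_cast h8) (Nat.card_pos (α := W)).ne'
      · exact h8
    rw [hm, h9, zero_smul, add_zero]
  have h5 : z = 1 := eq_one_of_fix cs h z fun k => h4 _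
  have h6 : cs.simple j * w * cs.simple i = w := by
    have h7 : w * z = w := by rw [h5, mul_one]
    rw [hz] at h7
    simpa [mul_assoc] using h7
  have h7 := congrArg (fun t => cs.simple j * t) h6
  simp only [← mul_assoc, cs.simple_mul_simple_self, one_mul] at h7
  exact h7

omit [DecidableEq B] in
/-- `fn c v > 0` for a nonnegative combination of simple roots which is not in the span of the zeros of `c`. -/
theorem fn_pos {c v : B → ℤ} (hc : ∀ i, 0 ≤ c i) (hv : 0 ≤ v) (hne : fn c v ≠ 0) : 0 < fn c v :=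
  lt_of_le_of_ne (fn_nonneg hv fun j _ => hc j) (Ne.symm hne)

omit [DecidableEq B] in
theorem supp_of_fn_eq_zero {c v : B → ℤ} (hc : ∀ i, 0 ≤ c i) (hv : 0 ≤ v) (h0 : fn c v = 0) :
    ∀ j, v j ≠ 0 → c j = 0 := by
  intro j hj
  have h1 : ∀ k ∈ Finset.univ, 0 ≤ v k * c k := fun k _ => mul_nonneg (hv k) (hc k)
  have h2 := (Finset.sum_eq_zero_iff_of_nonneg h1).1 h0 j (Finset.mem_univ j)
  rcases mul_eq_zero.1 h2 with h3 | h3
  · exact absurd h3 hj
  · exact h3

variable [Finite W]

omit [Finite W] in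
/-- `v = Σ v_k α_k` -/
theorem rep_eq_sum (w : W) (v : B → ℤ) : rep cs h w v = ∑ k, v k • rep cs h w (Pi.single k 1) := by
  have h1 : v = ∑ i, v i • (Pi.single i (1 : ℤ) : B → ℤ) := by
    funext j
    simp [Finset.sum_apply, Pi.single_apply]
  conv_lhs => rw [h1]
  rw [map_sum]
  simp only [map_smul]

/-- The criterion. -/
theorem reg_iff {c : B → ℤ} (hc : ∀ i, 0 ≤ c i) {K : Set B} (hK : ∀ i, i ∈ K ↔ c i = 0) {w : W}
    (hw : ∀ i ∈ K, cs.length w < cs.length (cs.simple i * w)) :
    Reg cs K w ↔ ∀ i ∈ K, 0 < mv cs h w c i := by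
  have hwp : ∀ i ∈ K, 0 ≤ rep cs h w⁻¹ (Pi.single i 1) := by
    intro i hi
    refine nonneg_of_lt cs h _ i ?_
    have h1 := hw i hi
    rw [← cs.length_inv w, ← cs.length_inv (cs.simple i * w), mul_inv_rev, cs.inv_simple] at h1
    exact h1
  constructor
  · intro hR i hi
    have h1 := (hR i hi).1
    refine fn_pos hc (nonneg_of_lt cs h w i h1.1) fun h0 => ?_
    -- the support of `w α_i` is in `K`
    have h2 := supp_of_fn_eq_zero hc (nonneg_of_lt cs h w i h1.1) h0
    set v := rep cs h w (Pi.single i 1) with hv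
    have hv0 : 0 ≤ v := nonneg_of_lt cs h w i h1.1
    -- `α_i = Σ v_k w⁻¹ α_k`
    have h3 : (Pi.single i 1 : B → ℤ) = ∑ k, v k • rep cs h w⁻¹ (Pi.single k 1) := by
      rw [← rep_eq_sum, hv, ← rep_mul_apply, inv_mul_cancel, map_one, Module.End.one_apply]
    obtain ⟨k, hk⟩ : ∃ k, v k ≠ 0 := by
      by_contra hcon
      push Not at hcon
      exact rep_single_ne_zero cs h w i (funext hcon)
    have hkK : k ∈ K := (hK k).2 (h2 k hk)
    have hnn : ∀ l, 0 ≤ v l • rep cs h w⁻¹ (Pi.single l 1) := by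
      intro l
      by_cases hl : v l = 0
      · rw [hl, zero_smul]
      · exact smul_nonneg (hv0 l) (hwp l ((hK l).2 (h2 l hl)))
    -- `w⁻¹ α_k` is supported on `i`
    have h4 : ∀ j, j ≠ i → rep cs h w⁻¹ (Pi.single k 1) j = 0 := by
      intro j hj
      have h5 := congrFun h3 j
      rw [Pi.single_apply, if_neg hj, Finset.sum_apply] at h5
      have h6 := (Finset.sum_eq_zero_iff_of_nonneg (fun l _ => hnn l j)).1 h5.symm k (Finset.mem_univ k)
      rw [Pi.smul_apply, smul_eq_mul] at h6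
      rcases mul_eq_zero.1 h6 with h7 | h7
      · exact absurd h7 hk
      · exact h7
    set x := rep cs h w⁻¹ (Pi.single k 1) i with hx
    have h5 : rep cs h w⁻¹ (Pi.single k 1) = x • Pi.single i 1 := by
      funext j
      rw [Pi.smul_apply, Pi.single_apply, smul_eq_mul]
      by_cases hj : j = i
      · rw [if_pos hj, mul_one, hj]
      · rw [if_neg hj, mul_zero, h4 j hj]
    have h6 : (Pi.single k 1 : B → ℤ) = x • v := by
      rw [hv, ← map_smul, ← h5, ← rep_mul_apply, mul_inv_cancel, map_one, Module.End.one_apply]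
    have h7 : x * v k = 1 := by
      have := congrFun h6 k
      simpa using this.symm
    have hx0 : 0 ≤ x := hwp k hkK i
    have hx1 : x = 1 := by
      rcases Int.eq_one_or_neg_one_of_mul_eq_one h7 with h8 | h8
      · exact h8
      · omega
    rw [hx1, one_smul] at h6
    exact (h1.2 k hkK) (conj_of_rep cs h h6.symm)
  · intro hx i hi
    have h1 : ∀ i ∈ K, cs.length w < cs.length (w * cs.simple i) := by
      intro i hi
      rcases cs.length_mul_simple w i with h' | h'
      · omega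
      · exfalso
        have h2 := fn_nonpos (c := c) (nonpos_of_lt cs h w i (by omega)) fun j _ => hc j
        exact absurd (hx i hi) (not_lt.2 h2)
    have h2 : ∀ i ∈ K, ∀ j ∈ K, w * cs.simple i ≠ cs.simple j * w := by
      intro i hi j hj he
      have h3 : rep cs h (w * cs.simple i) (Pi.single i 1) = rep cs h (cs.simple j * w) (Pi.single i 1) := by
        rw [he]
      rw [rep_mul_apply, rep_simple, refl_single_self h, map_neg, rep_mul_apply, rep_simple,
        refl_apply, single_eq_smul j] at h3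
      have h4 := congrArg (fn c) h3
      have hcj : fn c (Pi.single j 1) = 0 := by
        rw [fn_single, one_mul, (hK j).1 hj]
      have h5 : fn c (rep cs h w (Pi.single i 1)) = mv cs h w c i := rfl
      rw [fn_sub, fn_smul, hcj, mul_zero, sub_zero, ← neg_one_smul ℤ, fn_smul, h5] at h4
      have h6 := hx i hi
      omega
    exact ⟨⟨h1 i hi, h2 i hi⟩, hw i hi, fun j hj he => h2 j hj i hi he.symm⟩

include h in
/-- The minimal representatives. -/
theorem min_unique {K : Set B} {u w : W} (hu : u ∈ WJ cs K)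
    (hw : ∀ i ∈ K, cs.length w < cs.length (cs.simple i * w))
    (huw : ∀ i ∈ K, cs.length (u * w) < cs.length (cs.simple i * (u * w))) : u = 1 := by
  have hC : Cox cs := inferInstance
  have key : ∀ w : W, (∀ i ∈ K, cs.length w < cs.length (cs.simple i * w)) → ∀ i ∈ K,
      0 ≤ rep cs h w⁻¹ (Pi.single i 1) := by
    intro w hw i hi
    refine nonneg_of_lt cs h _ i ?_
    have h1 := hw i hi
    rw [← cs.length_inv w, ← cs.length_inv (cs.simple i * w), mul_inv_rev, cs.inv_simple] at h1
    exact h1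
  by_contra hu1
  obtain ⟨i, hi, hdes⟩ := hC.exists_descent hu hu1
  have hlt : cs.length (u * cs.simple i) < cs.length u := hdes
  have h1 := nonpos_of_lt cs h u i hlt
  have h2 := supp_rep cs h hu (v := Pi.single i 1) (L := K) (fun k hk => by
    by_contra hk'
    apply hk
    rw [Pi.single_apply, if_neg]
    rintro rfl
    exact hk' hi)
  have h3 : rep cs h (u * w)⁻¹ (rep cs h u (Pi.single i 1)) = rep cs h w⁻¹ (Pi.single i 1) := by
    rw [← rep_mul_apply, mul_inv_rev, mul_assoc, inv_mul_cancel, mul_one]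
  have h4 : rep cs h (u * w)⁻¹ (rep cs h u (Pi.single i 1)) ≤ 0 := by
    rw [rep_eq_sum]
    refine Finset.sum_nonpos fun k _ => ?_
    by_cases hk : rep cs h u (Pi.single i 1) k = 0
    · rw [hk, zero_smul]
    · have h5 := key _ huw k (h2 k hk)
      exact fun l => mul_nonpos_of_nonpos_of_nonneg (h1 k) (h5 l)
  exact rep_single_ne_zero cs h w⁻¹ i (le_antisymm (h3 ▸ h4) (key w hw i hi))

omit [Fintype B] [DecidableEq B] [Finite W] in
theorem exists_min (K : Set B) (w : W) :
    ∃ u ∈ WJ cs K, ∀ i ∈ K, cs.length (u * w) < cs.length (cs.simple i * (u * w)) := by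
  classical
  have hex : ∃ n, ∃ u ∈ WJ cs K, cs.length (u * w) = n := ⟨_, 1, one_mem _, rfl⟩
  obtain ⟨u, hu, hun⟩ := Nat.find_spec hex
  refine ⟨u, hu, fun i hi => ?_⟩
  rcases cs.length_simple_mul (u * w) i with h' | h'
  · omega
  · exfalso
    refine Nat.find_min hex (m := cs.length (cs.simple i * (u * w))) (by omega)
      ⟨cs.simple i * u, mul_mem (simple_mem_WJ hi) hu, by rw [mul_assoc]⟩

/-- **The number of regular elements.** -/
theorem card_reg {c : B → ℤ} (hc : ∀ i, 0 ≤ c i) {K : Set B} (hK : ∀ i, i ∈ K ↔ c i = 0) :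
    Nat.card {w : W // Reg cs K w} =
      Nat.card {x : B → ℤ // (∃ w : W, mv cs h w c = x) ∧ ∀ i ∈ K, 0 < x i} := by
  have hKe : K = {i | c i = 0} := Set.ext hK
  have hmin : ∀ w : W, Reg cs K w → ∀ i ∈ K, cs.length w < cs.length (cs.simple i * w) :=
    fun w hw i hi => (hw i hi).2.1
  refine Nat.card_congr (Equiv.ofBijective (fun w : {w : W // Reg cs K w} =>
    (⟨mv cs h w.1 c, ⟨w.1, rfl⟩, (reg_iff cs h hc hK (hmin _ w.2)).1 w.2⟩ :
      {x : B → ℤ // (∃ w : W, mv cs h w c = x) ∧ ∀ i ∈ K, 0 < x i})) ⟨?_, ?_⟩)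
  · rintro ⟨v, hv⟩ ⟨w, hw⟩ hvw
    have h1 : mv cs h v c = mv cs h w c := congrArg Subtype.val hvw
    have h2 : v * w⁻¹ ∈ WJ cs K := by
      rw [hKe, mem_WJ_iff cs h hc, mv_mul, h1, ← mv_mul, mul_inv_cancel, mv_one]
    have h3 := min_unique cs h h2 (hmin w hw) (by
      rw [inv_mul_cancel_right]
      exact hmin v hv)
    exact Subtype.ext (mul_inv_eq_one.1 h3)
  · rintro ⟨x, ⟨w, rfl⟩, hx⟩
    obtain ⟨u, hu, hmin'⟩ := exists_min cs K w
    have h1 : mv cs h (u * w) c = mv cs h w c := by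
      rw [hKe] at hu
      rw [mv_mul, (mem_WJ_iff cs h hc).1 hu]
    refine ⟨⟨u * w, (reg_iff cs h hc hK hmin').2 fun i hi => ?_⟩, Subtype.ext h1⟩
    rw [h1]
    exact hx i hi

include h in
/-- **Counting with an explicit model of the orbit.** -/
theorem card_reg_model {c : B → ℤ} (hc : ∀ i, 0 ≤ c i) {K : Set B} (hK : ∀ i, i ∈ K ↔ c i = 0)
    {Y : Type*} (φ : Y → B → ℤ)
    (hφ : Function.Injective φ) (y₀ : Y) (hy₀ : φ y₀ = c) (s : B → Y → Y)
    (hs : ∀ i y j, φ (s i y) j = φ y j - A i j * φ y i) (rk : Y → ℕ)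
    (hconn : ∀ y, y ≠ y₀ → ∃ i, rk (s i y) < rk y) :
    Nat.card {w : W // Reg cs K w} = Nat.card {y : Y // ∀ i ∈ K, 0 < φ y i} := by
  have hs' : ∀ i y, φ (s i y) = mv cs h (cs.simple i) (φ y) := by
    intro i y
    rw [mv_simple]
    exact funext fun j => hs i y j
  have hX : ∀ x : B → ℤ, (∃ w : W, mv cs h w c = x) ↔ ∃ y, φ y = x := by
    intro x
    constructor
    · rintro ⟨w, rfl⟩
      induction w using cs.simple_induction_right with
      | one => exact ⟨y₀, by rw [mv_one, hy₀]⟩
      | mul_simple_right w i ih =>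
        obtain ⟨y, hy⟩ := ih
        exact ⟨s i y, by rw [hs', hy, ← mv_mul]⟩
    · rintro ⟨y, rfl⟩
      induction hn : rk y using Nat.strong_induction_on generalizing y with
      | _ n ih =>
      by_cases hy : y = y₀
      · exact ⟨1, by rw [mv_one, hy, hy₀]⟩
      · obtain ⟨i, hi⟩ := hconn y hy
        obtain ⟨w, hw⟩ := ih _ (hn ▸ hi) (s i y) rfl
        refine ⟨w * cs.simple i, ?_⟩
        rw [mv_mul, hw, hs', ← mv_mul, cs.simple_mul_simple_self, mv_one]
  rw [card_reg cs h hc hK]
  refine (Nat.card_congr (Equiv.ofBijective (fun y : {y : Y // ∀ i ∈ K, 0 < φ y i} =>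
      (⟨φ y.1, (hX _).2 ⟨y.1, rfl⟩, y.2⟩ :
        {x : B → ℤ // (∃ w : W, mv cs h w c = x) ∧ ∀ i ∈ K, 0 < x i})) ⟨?_, ?_⟩)).symm
  · intro a b hab
    exact Subtype.ext (hφ (congrArg Subtype.val hab))
  · rintro ⟨x, hx, hx'⟩
    obtain ⟨y, rfl⟩ := (hX x).1 hx
    exact ⟨⟨y, hx'⟩, rfl⟩

end Cfsg.Agent.H568.EB
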