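import Cfsg.Agent.H568.EB.RegTree
import Cfsg.Agent.H694.CoxExc

/-!
# The number of regular elements of the Weyl groups of type `F₄` (TEAM EB, [U10])
-/

set_option autoImplicit false
set_option maxRecDepth 100000

namespace Cfsg.Agent.H568.EB

open Cfsg.Agent.ChevalleyStructure.CoxeterGeom Cfsg.Agent.Tits.Core Cfsg.Agent.Tits.OppRes
open Cfsg.Agent.ChevalleyStructure.CoxeterGeomTypes
open Cfsg.Agent.H694 Cfsg.Agent.H694.EB

/-- **Type `F₄`**, `K` the two middle nodes. -/
theorem reg_F4 {W : Type*} [Group W] [Finite W] (cs : CoxeterSystem CoxeterMatrix.F₄ W) :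
    Odd (Nat.card {w : W // Reg cs {i | (i : ℕ) = 1 ∨ (i : ℕ) = 2} w}) := by
  have h := reg_list isCartan_F4 LF4 39049 (fun i => aF4 i) [22, 42, 30, 16]
    (by decide +kernel) (by decide +kernel) (by decide +kernel)
    (by
      intro n hn i j
      rw [cartan_F4]
      revert n
      revert i j
      decide +kernel) (by decide +kernel) (by decide +kernel) (by decide +kernel) cs
    {i | (i : ℕ) = 1 ∨ (i : ℕ) = 2} (by decide +kernel)
  rw [h]
  decide +kernel

end Cfsg.Agent.H568.EB
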