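import Cfsg.Agent.H568.EB.RegCount

/-!
# Counting regular elements with a search tree of encoded functionals (TEAM EB, [U10])
-/

set_option autoImplicit false

namespace Cfsg.Agent.H568.EB

open Cfsg.Agent.ChevalleyStructure.CoxeterGeom Cfsg.Agent.Tits.Core Cfsg.Agent.Tits.OppRes
open Cfsg.Agent.H694 Cfsg.Agent.H694.EB

/-- binary search trees -/
inductive Tr
  | lf : Tr
  | nd : Tr → ℕ → Tr → Tr

/-- search -/
noncomputable def Tr.has (n : ℕ) (t : Tr) : Bool :=
  Tr.rec false (fun _ v _ a b => cond (Nat.blt n v) a (cond (Nat.blt v n) b true)) t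

/-- the list of the entries -/
def Tr.list : Tr → List ℕ
  | .lf => []
  | .nd l v r => l.list ++ v :: r.list

theorem Tr.mem_list {n : ℕ} : ∀ {t : Tr}, t.has n = true → n ∈ t.list
  | .lf, h => by simp [Tr.has] at h
  | .nd l v r, h => by
    rw [Tr.list, List.mem_append, List.mem_cons]
    have h1 : (cond (Nat.blt n v) (l.has n) (cond (Nat.blt v n) (r.has n) true)) = true := h
    cases h2 : Nat.blt n v with
    | true =>
      rw [h2, cond_true] at h1
      exact Or.inl (Tr.mem_list h1)
    | false =>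
      rw [h2, cond_false] at h1
      cases h3 : Nat.blt v n with
      | true =>
        rw [h3, cond_true] at h1
        exact Or.inr (Or.inr (Tr.mem_list h1))
      | false =>
        refine Or.inr (Or.inl ?_)
        have h4 : ¬ n < v := by
          intro hlt
          rw [(show Nat.blt n v = true from by simpa [Nat.blt_eq] using hlt)] at h2
          exact absurd h2 (by decide)
        have h5 : ¬ v < n := by
          intro hlt
          rw [(show Nat.blt v n = true from by simpa [Nat.blt_eq] using hlt)] at h3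
          exact absurd h3 (by decide)
        omega

/-- **The number of regular elements, with an explicit list of codes.** -/
theorem reg_list {l : ℕ} {M : CoxeterMatrix (Fin l)} {A : Fin l → Fin l → ℤ}
    (h : IsCartan M A) (L : List ℕ) (n₀ : ℕ) (a : Fin l → ℤ) (v : List ℤ)
    (h0 : n₀ ∈ L) (hdom : ∀ i : Fin l, 0 ≤ dc n₀ i)
    (h1 : ∀ n ∈ L, ∀ i : Fin l, nx (a i) n i ∈ L)
    (h2 : ∀ n ∈ L, ∀ i j : Fin l, dc (nx (a i) n i) j = dc n j - A i j * dc n i)
    (h3 : ∀ n ∈ L, n = n₀ ∨ ∃ i : Fin l, rkL v (nx (a i) n i) < rkL v n)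
    (h4 : ∀ n ∈ L, (n : ℤ) = en l n) (h5 : L.Nodup)
    {W : Type*} [Group W] [Finite W] (cs : CoxeterSystem M W) (K : Set (Fin l))
    (hK : ∀ i, i ∈ K ↔ dc n₀ i = 0) :
    Nat.card {w : W // Reg cs K w} = (L.filter fun n => ∀ i : Fin l, dc n₀ i = 0 → 0 < dc n i).length := by
  classical
  let Y := {n : ℕ // n ∈ L}
  let φ : Y → Fin l → ℤ := fun y j => dc y.1 j
  have hφ : Function.Injective φ := by
    rintro ⟨n, hn⟩ ⟨m, hm⟩ hh
    apply Subtype.ext
    have e1 : en l n = en l m := by
      unfold en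
      congr 1
      refine List.map_congr_left fun j hj => ?_
      have := congrFun hh ⟨j, List.mem_range.1 hj⟩
      simp only [φ] at this
      rw [this]
    rw [← h4 n hn, ← h4 m hm] at e1
    exact_mod_cast e1
  have k1 := card_reg_model cs h (c := fun i => dc n₀ i) hdom hK φ hφ ⟨n₀, h0⟩ rfl
    (fun i y => ⟨nx (a i) y.1 i, h1 y.1 y.2 i⟩) (fun i y j => h2 y.1 y.2 i j)
    (fun y => rkL v y.1) (fun y hy => by
      rcases h3 y.1 y.2 with h6 | h6
      · exact absurd (Subtype.ext h6) hy
      · exact h6)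
  have hcard : ∀ L' : List ℕ, L'.Nodup → Nat.card {n : ℕ // n ∈ L'} = L'.length := by
    intro L' hL'
    rw [← List.toFinset_card_of_nodup hL', ← Nat.card_eq_finsetCard]
    exact Nat.card_congr (Equiv.subtypeEquivRight fun n => by simp)
  refine k1.trans ?_
  rw [← hcard _ (h5.filter _)]
  refine Nat.card_congr ⟨fun y => ⟨y.1.1, ?_⟩, fun y => ⟨⟨y.1, (List.mem_filter.1 y.2).1⟩, ?_⟩,
    fun y => rfl, fun y => rfl⟩
  · rw [List.mem_filter]
    exact ⟨y.1.2, decide_eq_true fun i hi => y.2 i ((hK i).2 hi)⟩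
  · intro i hi
    exact of_decide_eq_true (List.mem_filter.1 y.2).2 i ((hK i).1 hi)

/-- the increasing lists have no repetitions -/
theorem nodup_of_isChain {L : List ℕ} (h : L.IsChain (· < ·)) : L.Nodup :=
  (List.isChain_iff_pairwise.1 h).imp fun hab => hab.ne

end Cfsg.Agent.H568.EB
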